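import Cfsg.Agent.H3.QK0
import Cfsg.Agent.H9.SylIn
import Cfsg.Agent.H9.Basic2
import Cfsg.Agent.H6.M22I
import Cfsg.Agent.H6.M24I
import Cfsg.Agent.H6.M24G
import Cfsg.Agent.H6.LeHS
import Cfsg.Agent.H6.LeMc
import Cfsg.Agent.H6.LeC1
import Cfsg.Agent.H6.LeC2
import Cfsg.Agent.H6.LeC3

/-! Rank witnesses: Mathieu and Conway groups. -/

set_option autoImplicit false
set_option maxRecDepth 100000

namespace CfH5.QS

open Subgroup Cfsg Cfsg.Spor CfH6 CfH3.QK MulAction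

universe u

theorem rk_act {G X : Type*} [Group G] [Finite G] [MulAction G X] {p : ℕ} (hp : p.Prime) {x y : G}
    (h1 : x ^ p = 1) (h2 : y ^ p = 1) (h3 : x * y = y * x) {b : X} (n1 : x • b ≠ b)
    (n2 : ∀ i < p, x ^ i • b ≠ y • b) : PRankAtLeast p 2 G := by
  have x1 : x ≠ 1 := fun e => n1 (by rw [e, one_smul])
  refine rank2_of hp h1 h2 x1 h3 fun e => ?_
  obtain ⟨n, hn⟩ := (mem_powers_iff_mem_zpowers).2 e
  refine n2 (n % p) (Nat.mod_lt _ hp.pos) ?_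
  rw [← show x ^ n = y from hn, ← pow_eq_pow_mod n h1]

noncomputable def w1 (nets : List Net) (k m : ℕ) (bs w : List ℕ) : Bool :=
  allLt k w && bs.all fun b => Nat.blt b m && Nat.beq (chkMap nets w b b) 0

noncomputable def chkR (nets : List Net) (k m : ℕ) (bs : List ℕ) (p : ℕ) (wx wy cs : List ℕ) (c : ℕ) :
    Bool :=
  w1 nets k m bs (wpow wx p) && w1 nets k m bs (wpow wy p) &&
  w1 nets k m bs (wx ++ wy ++ wpow wx (p - 1) ++ wpow wy (p - 1)) &&
  Nat.blt (cs.getD 0 0) m && allLt k wy && Nat.beq (chkMap nets wy (cs.getD 0 0) c) 0 &&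
  !(Nat.beq (cs.getD 1 0) (cs.getD 0 0)) &&
  (List.range p).all fun i => allLt k (wpow wx i) &&
    Nat.beq (chkMap nets (wpow wx i) (cs.getD 0 0) (cs.getD i 0)) 0 && !(Nat.beq (cs.getD i 0) c)

theorem rk_lvl {G : Type*} [Group G] [Finite G] [MulAction G ℕ] {m : ℕ} {nets : List Net} {k : ℕ}
    {el : ℕ → G} (L : Lvl m nets k el) {bs : List ℕ} (hb : ∀ g : G, (∀ b ∈ bs, g • b = b) → g = 1)
    {p : ℕ} (hp : p.Prime) (wx wy cs : List ℕ) (c : ℕ) (h : chkR nets k m bs p wx wy cs c = true) :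
    PRankAtLeast p 2 G := by
  simp only [chkR, Bool.and_eq_true, List.all_eq_true, List.mem_range, Bool.not_eq_true'] at h
  obtain ⟨⟨⟨⟨⟨⟨⟨a1, a2⟩, a3⟩, a4⟩, a5⟩, a6⟩, a7⟩, a8⟩ := h
  have e1 := L.word_one hb _ a1
  have e2 := L.word_one hb _ a2
  have e3 := L.word_one hb _ a3
  rw [evw_wpow] at e1 e2
  simp only [evw_append, evw_wpow] at e3
  have i : ∀ {g : G}, g ^ p = 1 → g ^ (p - 1) = g⁻¹ := fun {g} h =>
    eq_inv_of_mul_eq_one_left (by rw [← pow_succ, Nat.sub_add_cancel hp.pos, h])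
  rw [i e1, i e2] at e3
  have m : ∀ i < p, evw el wx ^ i • cs.getD 0 0 = cs.getD i 0 := fun i hi => by
    rw [← evw_wpow]; exact L.map (a8 i hi).1.1 a4 (a8 i hi).1.2
  refine rk_act hp e1 e2 ?_ (b := cs.getD 0 0) ?_ fun i hi => ?_
  · rw [mul_inv_eq_one, mul_inv_eq_iff_eq_mul] at e3
    exact e3
  · have := m 1 hp.one_lt
    rw [pow_one] at this
    rw [this]
    exact Nat.ne_of_beq_eq_false a7
  · rw [m i hi, L.map a5 a4 a6]
    exact Nat.ne_of_beq_eq_false (a8 i hi).2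

theorem rk_equiv {G H : Type*} [Group G] [Group H] {p n : ℕ} (e : Nonempty (G ≃* H))
    (h : PRankAtLeast p n G) : PRankAtLeast p n H := rank_map e.some.toMonoidHom e.some.injective h

theorem rk_le {G : Type*} [Group G] {p n : ℕ} {A B : Subgroup G} (e : A ≤ B)
    (h : PRankAtLeast p n A) : PRankAtLeast p n B := rank_map (inclusion e) (inclusion_injective e) h

theorem ns_of {G : Type*} [Group G] {n : ℕ} (h : Nat.card G ∣ n) (a b c d e f g i j k l m o : ℕ)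
    (hn : n = 2 ^ a * 3 ^ b * 5 ^ c * 7 ^ d * 11 ^ e * 17 ^ f * 19 ^ g * 23 ^ i * 29 ^ j * 31 ^ k *
      37 ^ l * 43 ^ m * 67 ^ o) : NS G := by
  refine NS.of_primes fun r hr hd => ?_
  have := hd.trans h
  have q : ∀ {s t : ℕ}, s.Prime → r ∣ s ^ t → r = s := fun hs h =>
    (Nat.prime_dvd_prime_iff_eq hr hs).1 (hr.dvd_of_dvd_pow h)
  rw [hn] at this
  simp only [hr.dvd_mul] at this
  rcases this with (((((((((((h | h) | h) | h) | h) | h) | h) | h) | h) | h) | h) | h) | h <;>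
    (rw [q (by norm_num) h]; decide)

theorem fin_of {G : Type*} {n : ℕ} (h : Nat.card G = n + 1) : Finite G :=
  Nat.finite_of_card_ne_zero (by omega)

theorem tc {K L : Type*} [Group K] [Group L] [Finite K] (e : Nonempty (K ≃* L))
    (h : PRankAtLeast 3 2 L) (n : NS L) : T K := by
  haveI : Finite L := Finite.of_equiv K e.some.toEquiv
  exact T.equiv e.some (T.of_c h n)

theorem r3_M22B : PRankAtLeast 3 2 M22B.G := by
  letI := M22A.act
  haveI := fin_of M22G.card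
  exact rk_lvl M22A.L0 M22G.base Nat.prime_three [1, 2] [3, 4, 2, 1, 3, 1, 2, 3, 1, 2, 4, 3]
    [10, 17, 12] 15 (by decide +kernel)

theorem r3_M22 : PRankAtLeast 3 2 M22 := rk_equiv M22I.iso r3_M22B
theorem r3_M23 : PRankAtLeast 3 2 M23 := rk_le inf_le_left r3_M22
theorem r3_M24 : PRankAtLeast 3 2 M24 := rk_le inf_le_left r3_M23

theorem isoM24 : Nonempty (M24B.G ≃* M24) :=
  ⟨MulEquiv.ofBijective _ M24I.iso.choose_spec⟩

theorem r3_M24B : PRankAtLeast 3 2 M24B.G := rk_equiv ⟨isoM24.some.symm⟩ r3_M24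

theorem card_M24 : Nat.card M24 = 244823040 := by
  rw [← Nat.card_congr isoM24.some.toEquiv, M24G.card]

theorem ns_M {A : Subgroup (Equiv.Perm GolayPt)} (h : A ≤ M24) : NS A :=
  ns_of (card_M24 ▸ card_dvd_of_le h) 10 3 1 1 1 0 0 1 0 0 0 0 0 (by norm_num)

open CfH4 in
def mv (l : List ℕ) (h : ∀ y, Gol.pt (l.getD (Gol.ix (Gol.pt (l.getD (Gol.ix y) 0))) 0) = y)
    (h' : Gol.perm l h ∈ M11) : M11 := ⟨Gol.perm l h, h'⟩

open CfH4 in
def ma : M11 := mv [0, 9, 2, 3, 13, 7, 6, 5, 18, 1, 10, 22, 16, 4, 14, 15, 12, 19, 8, 17, 23, 21, 11, 20]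
  (by decide +kernel) (Gol.mem_M11 (by decide +kernel))
open CfH4 in
def mb : M11 := mv [0, 1, 9, 8, 4, 19, 13, 11, 3, 2, 10, 7, 16, 6, 14, 20, 12, 22, 18, 5, 15, 21, 17, 23]
  (by decide +kernel) (Gol.mem_M11 (by decide +kernel))
open CfH4 in
def mc : M11 := mv [0, 4, 6, 3, 1, 7, 2, 5, 8, 13, 21, 19, 16, 9, 14, 15, 12, 22, 18, 11, 20, 10, 17, 23]
  (by decide +kernel) (Gol.mem_M11 (by decide +kernel))
open CfH4 in
def md : M11 := mv [0, 18, 3, 2, 4, 22, 6, 11, 9, 8, 14, 7, 16, 13, 10, 15, 12, 19, 1, 17, 20, 21, 5, 23]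
  (by decide +kernel) (Gol.mem_M11 (by decide +kernel))

theorem r3_M11 : PRankAtLeast 3 2 M11 :=
  rk_act (X := GolayPt) Nat.prime_three (x := ma * mb) (y := mc * md) (by decide +kernel)
    (by decide +kernel) (by decide +kernel) (b := some 1) (by decide +kernel) (by decide +kernel)

theorem r3_M12 : PRankAtLeast 3 2 M12 := rk_le inf_le_left r3_M11

theorem r_HiB : PRankAtLeast 3 2 HiB.G ∧ PRankAtLeast 5 2 HiB.G := by
  letI := HiA.act
  haveI := fin_of HiG.card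
  exact ⟨rk_lvl HiA.L0 HiG.base Nat.prime_three [1, 5] [3, 1, 3, 1, 2, 3, 1, 3] [0, 22, 17] 86
    (by decide +kernel), rk_lvl HiA.L0 HiG.base Nat.prime_five [2, 3, 5] [4, 0, 2, 3, 5, 0, 4]
    [0, 37, 86, 66, 33] 25 (by decide +kernel)⟩

theorem r3_HS : PRankAtLeast 3 2 HS := rk_equiv Lee.isoHS r_HiB.1
theorem r5_HS : PRankAtLeast 5 2 HS := rk_equiv Lee.isoHS r_HiB.2

theorem r3_McL : PRankAtLeast 3 2 McL := by
  letI := McA.act
  haveI := fin_of McG.card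
  exact rk_equiv Lee.isoMcL (rk_lvl McA.L0 McG.base Nat.prime_three [0, 2] [3, 5, 3, 0, 2, 3, 5, 3]
    [2, 18, 16] 76 (by decide +kernel))

theorem r3_Co3 : PRankAtLeast 3 2 Co3 := rk_le inf_le_left r3_McL
theorem r3_Co2 : PRankAtLeast 3 2 Co2 := rk_le (inf_le_inf_right _ inf_le_left) r3_McL

theorem r_Co1 {p : ℕ} (h : PRankAtLeast p 2 HS) : PRankAtLeast p 2 Co1 := by
  haveI := Lee.simpleHS
  have le : HS ≤ Co0 := inf_le_left.trans inf_le_left
  exact rank_map _ (inj_quot_center (by rw [Lee.cardHS]; norm_num) (inclusion le)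
    (inclusion_injective le)) h

variable {K : Type u} [Group K] [Finite K]

theorem t_m11 (h : IsoM11 K) : T K := tc h r3_M11 (ns_M (inf_le_left.trans inf_le_left))
theorem t_m12 (h : IsoM12 K) : T K := tc h r3_M12 (ns_M inf_le_left)
theorem t_m22 (h : IsoM22 K) : T K := tc h r3_M22 (ns_M (inf_le_left.trans inf_le_left))
theorem t_m23 (h : IsoM23 K) : T K := tc h r3_M23 (ns_M inf_le_left)
theorem t_m24 (h : IsoM24 K) : T K := tc h r3_M24 (ns_M le_rfl)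
theorem t_hs (h : IsoHS K) : T K :=
  tc h r3_HS (ns_of Lee.cardHS.dvd 9 2 3 1 1 0 0 0 0 0 0 0 0 (by norm_num))
theorem t_mcl (h : IsoMcL K) : T K :=
  tc h r3_McL (ns_of Lee.cardMcL.dvd 7 6 3 1 1 0 0 0 0 0 0 0 0 (by norm_num))
theorem t_co3 (h : IsoCo3 K) : T K :=
  tc h r3_Co3 (ns_of Lee.cardCo3.dvd 10 7 3 1 1 0 0 1 0 0 0 0 0 (by norm_num))
theorem t_co2 (h : IsoCo2 K) : T K :=
  tc h r3_Co2 (ns_of Lee.cardCo2.dvd 18 6 3 1 1 0 0 1 0 0 0 0 0 (by norm_num))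
theorem t_co1 (h : IsoCo1 K) : T K := tc h (r_Co1 r3_HS) (NS.of_five (.inr (r_Co1 r5_HS)))

end CfH5.QS
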