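import Cfsg.Agent.H5.Qs1
import Cfsg.Agent.H6.J1P
import Cfsg.Agent.H6.J3G
import Cfsg.Agent.H6.J3M
import Cfsg.Agent.H6.Suz
import Cfsg.Agent.H6.HeG
import Cfsg.Agent.H6.ONG
import Cfsg.Agent.H6.LyG

/-! Rank witnesses: `J₁`, `J₃`, `Suz`, `He`, `O'N`, `Ly`. -/

set_option autoImplicit false
set_option maxRecDepth 100000

namespace CfH5.QS

open Subgroup Cfsg Cfsg.Spor CfH6 CfH3.QK MulAction CfH9

universe u

theorem r_Suz : PRankAtLeast 3 2 SuzB.G ∧ PRankAtLeast 5 2 SuzB.G := by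
  letI := SuzA.act
  haveI := fin_of CfH6.Suz.card
  exact ⟨rk_lvl SuzA.L0 CfH6.Suz.base Nat.prime_three [3, 4] [1, 5] [2, 46, 43] 1497
    (by decide +kernel), rk_lvl SuzA.L0 CfH6.Suz.base Nat.prime_five [0, 1, 2]
    [3, 4, 2, 3, 1, 2, 3, 4, 0, 1, 2, 3, 0, 1, 2, 3, 2, 1, 0, 4, 3, 2, 1, 3, 2, 4, 3]
    [1, 129, 145, 143, 130] 1356 (by decide +kernel)⟩

theorem r3_He : PRankAtLeast 3 2 HeB.G := by
  letI := HeA.act
  haveI := fin_of HeG.card
  exact rk_lvl HeA.L0 HeG.base Nat.prime_three [3, 4] [6, 5, 2, 3, 4, 2, 5, 6] [3, 15, 5] 698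
    (by decide +kernel)

theorem r3_ON : PRankAtLeast 3 2 ONB.G := by
  letI := ONA.act
  haveI := fin_of ONG.card
  exact rk_lvl ONA.L0 ONG.base Nat.prime_three [2, 3] [6, 7] [1, 130, 128] 129 (by decide +kernel)

theorem r3_J3B : PRankAtLeast 3 2 J3B.G := by
  letI := J3A.act
  haveI := fin_of J3G.card
  exact rk_lvl J3A.L0 J3G.base Nat.prime_three [10] [8] [1, 133, 137] 2 (by decide +kernel)

theorem r3_Ly : PRankAtLeast 3 2 LyB.G := by
  letI := G25A.act
  haveI := fin_of G25G.card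
  exact rank_map _ LyN.inj (rk_lvl G25A.L0 G25G.base Nat.prime_three [2, 1, 8, 2, 1, 8]
    [4, 0, 3, 5, 0, 3, 8, 0, 3, 8, 4, 2, 1, 5] [0, 3192, 3175] 3371 (by decide +kernel))

section J3
variable {F F' : Type} [Field F] [Field F'] (σ : F →+* F') {ω : F}

theorem j3_map : threeJ3 F ω ≤ (threeJ3 F' (σ ω)).comap (Matrix.GeneralLinearGroup.map σ) := by
  refine (closure_le _).2 fun g hg => subset_closure ?_
  change (g : Matrix F9 F9 F).map σ ∈ j3Gens F' (σ ω)
  rcases hg with (((⟨Z, e⟩ | ⟨Z, e⟩) | ⟨Z, e⟩) | ⟨Z, hZ, e⟩) | ⟨Z, hZ, e⟩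
  · refine .inl (.inl (.inl (.inl ⟨Z, ?_⟩)))
    rw [← e, j3A, j3A, Matrix.diagonal_map (map_zero σ)]
    simp only [omegaPow, map_pow]
  · refine .inl (.inl (.inl (.inr ⟨Z, ?_⟩)))
    rw [← e, j3E, j3E, Matrix.diagonal_map (map_zero σ)]
    simp only [omegaPow, map_pow]
  · refine .inl (.inl (.inr ⟨Z, ?_⟩))
    rw [← e]
    ext i j
    simp only [j3D, j3Lam, Matrix.map_apply, Matrix.of_apply, apply_ite σ, map_one, map_zero, map_pow]
  · refine .inl (.inr ⟨Z, hZ, ?_⟩)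
    rw [e]
    ext i j
    simp only [j3B, Matrix.map_apply, Matrix.of_apply, apply_ite σ, map_one, map_zero]
  · refine .inr ⟨Z, hZ, ?_⟩
    rw [e]
    ext i j
    simp only [j3C, Matrix.map_apply, Matrix.of_apply, apply_ite σ, map_one, map_zero]

theorem j3_hom {ω' : F'} (h : σ ω = ω') :
    ∃ f : threeJ3 F ω →* threeJ3 F' ω', Function.Injective f := by
  subst h
  refine ⟨((Matrix.GeneralLinearGroup.map σ).comp (threeJ3 F ω).subtype).codRestrict _
    fun g => j3_map σ g.2, fun a b e => Subtype.ext ?_⟩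
  ext i j
  exact σ.injective (congrArg (fun g : threeJ3 F' (σ ω) => (g.1 : Matrix F9 F9 F') i j) e)

end J3

theorem j3_iso {K : Type*} [Group K] (h : IsoJ3 K) : Nonempty (K ≃* J3B.G) := by
  obtain ⟨F, _, _, ω, hF, hω, ⟨e⟩⟩ := h
  obtain ⟨σ, hσ⟩ : ∃ σ : F ≃+* CfH3.F4, σ ω = J3M.ω := by
    obtain ⟨τ⟩ := CfH3.nonempty_equiv_F4 hF
    have h0 := congrArg τ hω
    simp only [map_add, map_pow, map_one, map_zero] at h0
    haveI hc2 : CharP CfH3.F4 2 := charP_of_card_eq_prime_pow (p := 2) (f := 2) CfH3.card_F4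
    rcases (by decide : ∀ a : CfH3.F4, a ^ 2 + a + 1 = 0 → a = J3M.ω ∨ a ^ 2 = J3M.ω) _ h0 with h | h
    · exact ⟨τ, h⟩
    · exact ⟨τ.trans (frobeniusEquiv CfH3.F4 2), h⟩
  obtain ⟨f, hf⟩ := j3_hom σ.toRingHom hσ
  obtain ⟨g, hg⟩ := j3_hom σ.symm.toRingHom (ω := J3M.ω) (ω' := ω) (σ.symm_apply_eq.2 hσ.symm)
  exact ⟨(e.trans (CfH3.centerQuotEquiv (MulEquiv.ofBijective f
    (hf.bijective_of_nat_card_le (Nat.card_le_card_of_injective g hg))))).trans J3M.iso.some.symm⟩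

theorem out_eight {G : Type*} [Group G] [Finite G] [IsSimpleGroup G] (hG : ¬ IsMulCommutative G)
    (S : Sylow 2 G) (h8 : Nat.card S = 8) : Group.IsSolvable (Out G) := by
  have hS1 : (S : Subgroup G) ≠ ⊥ := fun e => by rw [e, card_bot] at h8; omega
  refine Cfsg.Agent.S3066.result hG S hS1 ?_
  by_cases h2 : ∃ a b : S, closure ({a, b} : Set S) = ⊤
  · exact .inl h2
  push Not at h2
  have dv : ∀ A : Subgroup S, Nat.card A ∣ 8 := fun A => h8 ▸ card_subgroup_dvd_card A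
  have top : ∀ A : Subgroup S, 4 < Nat.card A → A = ⊤ := fun A hA => by
    refine eq_top_of_card_eq A ?_
    have := dv A
    have h := Nat.le_of_dvd (by norm_num) this
    rw [h8]
    interval_cases Nat.card A <;> omega
  have out : ∀ {A : Subgroup S}, A ≠ ⊤ → ∃ b, b ∉ A := fun {A} h => by
    by_contra hh
    push Not at hh
    exact h (eq_top_iff.2 fun b _ => hh b)
  have lt2 : ∀ a b : S, b ∉ zpowers a → Nat.card (zpowers a) < Nat.card (closure ({a, b} : Set S)) :=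
    fun a b hb => card_lt_of_lt (lt_of_le_of_ne (zpowers_le.2 (subset_closure (by simp)))
      fun e => hb (e ▸ subset_closure (by simp)))
  have zt : ∀ a : S, zpowers a ≠ ⊤ := fun a e => h2 a a (by rw [Set.pair_eq_singleton, ← zpowers_eq_closure, e])
  have sq : ∀ a : S, a * a = 1 := fun a => by
    obtain ⟨b, hb⟩ := out (zt a)
    have h1 := lt2 a b hb
    have h3 : ¬ 4 < Nat.card (closure ({a, b} : Set S)) := fun h => h2 a b (top _ h)
    have h4 := dv (zpowers a)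
    rw [Nat.card_zpowers] at h1 h4
    have : orderOf a ∣ 2 := by
      have h5 : orderOf a < 4 := by omega
      interval_cases orderOf a <;> omega
    rw [← pow_two]; exact orderOf_dvd_iff_pow_eq_one.1 this
  have cm : ∀ a b : S, a * b = b * a := fun a b => by
    rw [← inv_eq_of_mul_eq_one_right (sq (a * b)), mul_inv_rev, inv_eq_of_mul_eq_one_right (sq a),
      inv_eq_of_mul_eq_one_right (sq b)]
  have SC : (S : Subgroup G) ≤ Cz((S : Subgroup G)) := fun a ha => mem_centralizer_iff.2 fun b hb =>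
    congrArg Subtype.val (cm ⟨b, hb⟩ ⟨a, ha⟩)
  refine .inr (.inl ⟨?_, ?_⟩)
  · haveI : Nontrivial S := (nontrivial_iff_ne_bot _).2 hS1
    obtain ⟨a, ha⟩ := exists_ne (1 : S)
    obtain ⟨b, hb⟩ := out (zt a)
    obtain ⟨c, hc⟩ := out (h2 a b)
    refine ⟨a, b, c, top _ ?_⟩
    have h1 := lt2 a b hb
    have h3 : Nat.card (closure ({a, b} : Set S)) < Nat.card (closure ({a, b, c} : Set S)) :=
      card_lt_of_lt (lt_of_le_of_ne (closure_mono (by intro x; simp; tauto))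
        fun e => hc (e ▸ subset_closure (by simp)))
    have h4 : 1 < Nat.card (zpowers a) := one_lt_card_iff_ne_bot _ |>.2 (zpowers_ne_bot' ha)
    have h5 := dv (closure ({a, b} : Set S))
    have h6 := Nat.le_of_dvd (by norm_num) h5
    generalize Nat.card (closure ({a, b} : Set S)) = n at *
    interval_cases n <;> omega
  · by_contra hh
    push Not at hh
    have hN : Nm((S : Subgroup G)) ≤ Cz((S : Subgroup G)) := by
      intro g hg
      obtain ⟨k, m, hm, e⟩ := Nat.exists_eq_two_pow_mul_odd (orderOf_pos g).ne'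
      have h1 : g ^ 2 ^ k ∈ Cz((S : Subgroup G)) := hh _ (pow_mem hg _) (by
        rw [orderOf_pow_of_dvd (by positivity) (e ▸ dvd_mul_right _ _), e,
          Nat.mul_div_cancel_left _ (by positivity)]
        exact hm)
      have h3 : g ^ m ∈ Cz((S : Subgroup G)) := SC ((sylIn_top S).le_of_le_Nm'
        (isPGroup_zpowers (x := g ^ m) (k := k) (by rw [← pow_mul, mul_comm, ← e, pow_orderOf_eq_one]))
        le_top (zpowers_le.2 (pow_mem hg m)) (mem_zpowers _))
      have c : Nat.gcd (2 ^ k) m = 1 := (Nat.Coprime.pow_left k (Nat.coprime_two_left.2 hm))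
      have := mul_mem (zpow_mem h1 (Nat.gcdA (2 ^ k) m)) (zpow_mem h3 (Nat.gcdB (2 ^ k) m))
      rwa [← zpow_natCast, ← zpow_natCast, ← zpow_mul, ← zpow_mul, ← zpow_add, ← Nat.gcd_eq_gcd_ab, c,
        Nat.cast_one, zpow_one] at this
    have hc := MonoidHom.ker_transferSylow_isComplement' S hN
    rcases IsSimpleGroup.eq_bot_or_eq_top_of_normal (MonoidHom.transferSylow S hN).ker inferInstance
      with e | e
    · rw [e, isComplement'_bot_left] at hc
      exact hG ⟨⟨fun a b => congrArg Subtype.val (cm ⟨a, hc.ge (mem_top a)⟩ ⟨b, hc.ge (mem_top b)⟩)⟩⟩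
    · rw [e, isComplement'_top_left] at hc
      exact hS1 hc

variable {K : Type u} [Group K] [Finite K]

theorem t_j1 [IsSimpleGroup K] (hK : ¬ IsMulCommutative K) (h : IsoJ1 K) : T K := by
  have c : Nat.card K = 175560 := by
    rw [Nat.card_congr (h.some.trans J1P.isoJ1.some.symm).toEquiv, J1P.card]
  obtain ⟨S⟩ : Nonempty (Sylow 2 K) := inferInstance
  refine ⟨.inl (by rw [c]; norm_num), .inl (.inr (.inr (.inr h))), .inr (.inl (out_eight hK S ?_))⟩
  rw [S.card_eq_multiplicity, c]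
  decide +kernel

theorem t_j3 (h : IsoJ3 K) : T K :=
  tc (j3_iso h) r3_J3B (ns_of J3G.card.dvd 7 5 1 0 0 1 1 0 0 0 0 0 0 (by norm_num))
theorem t_suz (h : IsoSuz K) : T K := tc h r_Suz.1 (NS.of_five (.inr r_Suz.2))
theorem t_he (h : IsoHe K) : T K :=
  tc h r3_He (ns_of HeG.card.dvd 10 3 2 3 0 1 0 0 0 0 0 0 0 (by norm_num))
theorem t_on (h : IsoON K) : T K :=
  tc h r3_ON (ns_of ONG.card.dvd 9 4 1 3 1 0 1 0 0 1 0 0 0 (by norm_num))
theorem t_ly (h : IsoLy K) : T K :=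
  tc h r3_Ly (ns_of LyG.big.1.dvd 8 7 6 1 1 0 0 0 0 1 1 0 1 (by norm_num))

end CfH5.QS
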