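import Cfsg.Agent.H9.SylIn

/-! Split pairs of rank one and elements centralising the normaliser of a Sylow subgroup. -/

set_option autoImplicit false
set_option linter.unusedSectionVars false

namespace CfH5

open Subgroup CfH9

variable {G : Type*} [Group G] {p : ℕ} {X U B T : Subgroup G} {w h g s z : G}

theorem cyc_fix {c : G} {k m j : ℕ} (hp : p.Prime) (e2 : s * c * s⁻¹ = c ^ m) (hs : s ^ p ^ j = 1) (hh : (c ^ k) ^ (p - 1) = 1) :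
    s * c ^ k * s⁻¹ = c ^ k := by
  have e3 : s * c ^ k * s⁻¹ = (c ^ k) ^ m := by rw [← conj_pow, e2, ← pow_mul, ← pow_mul, mul_comm]
  generalize c ^ k = h at *
  have e4 : ∀ n, s ^ n * h * (s ^ n)⁻¹ = h ^ m ^ n := fun n => by
    induction n with
    | zero => simp
    | succ n ih => rw [pow_succ' s, pow_succ' m, pow_mul, ← e3, conj_pow, ← ih]; group
  have h1 := hp.two_le
  have h2 := Nat.le_of_dvd (by omega) (orderOf_dvd_of_pow_eq_one hh)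
  have : NeZero (orderOf h) := ⟨fun e => by have := orderOf_dvd_of_pow_eq_one hh; rw [e, zero_dvd_iff] at this; omega⟩
  have e5 := e4 (p ^ j)
  rw [hs, one_mul, inv_one, mul_one, ← pow_one h, ← pow_mul, one_mul, pow_eq_pow_iff_modEq, ← ZMod.natCast_eq_natCast_iff,
    Nat.cast_pow, Nat.cast_one] at e5
  obtain ⟨i, -, hi⟩ := (Nat.dvd_prime_pow hp).1 (orderOf_dvd_of_pow_eq_one e5.symm)
  have h3 := orderOf_le_card_univ (x := (m : ZMod (orderOf h)))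
  rw [ZMod.card, hi] at h3
  obtain rfl : i = 0 := by
    by_contra c
    have := Nat.le_self_pow c p
    omega
  rw [pow_zero, orderOf_eq_one_iff, ← Nat.cast_one, ZMod.natCast_eq_natCast_iff, ← pow_eq_pow_iff_modEq] at hi
  rw [e3, hi, pow_one]

structure R1 (p : ℕ) (X U B : Subgroup G) (w h : G) : Prop where
  pg : IsPGroup p U
  ne : U ≠ ⊥
  UB : U ≤ B
  BX : B ≤ X
  BN : B ≤ Nm(U)
  wX : w ∈ X
  bru : ∀ g ∈ X, g ∈ B ∨ ∃ u ∈ U, w⁻¹ * u * g ∈ B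
  ti : ∀ u ∈ U, w⁻¹ * u * w ∈ B → u = 1
  hB : h ∈ B
  hw : w⁻¹ * h * w ∈ B
  hc : ∀ u ∈ U, h * u = u * h → u = 1
  hp : h ^ (p - 1) ∈ U
  cyc : ∃ c ∈ B, ∀ b ∈ B, ∃ k : ℕ, (c ^ k)⁻¹ * b ∈ U
  cop : ∃ m, Nat.Coprime m p ∧ ∀ b ∈ B, b ^ m ∈ U

namespace R1
variable (R : R1 p X U B w h)
include R

theorem wN : w ∉ Nm(U) := fun e => R.ne ((eq_bot_iff_forall _).2 fun u hu => R.ti u hu (R.UB (conj_mem_of_mem_normalizer' e hu)))
theorem nB (hg : g ∈ X) (e : g ∈ Nm(U)) : g ∈ B := (R.bru g hg).resolve_right fun ⟨u, hu, f⟩ =>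
  R.wN (inv_mem_iff.1 ((mul_mem_cancel_right (le_normalizer hu)).1 ((mul_mem_cancel_right e).1 (R.BN f))))
theorem cB (h1 : s ∈ Nm(X)) (h2 : s ∈ Nm(U)) (hg : g ∈ B) : s * g * s⁻¹ ∈ B :=
  R.nB (conj_mem_of_mem_normalizer h1 (R.BX hg)) (mul_mem (mul_mem h2 (R.BN hg)) (inv_mem h2))
theorem syl [Finite G] [Fact p.Prime] : SylIn p U X := by
  refine sylIn_of_sylIn_Nm (R.UB.trans R.BX) ⟨le_inf (R.UB.trans R.BX) le_normalizer, R.pg, fun Q hQ h1 _ x hx => ?_⟩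
  obtain ⟨m, hm, e⟩ := R.cop
  obtain ⟨k, hk⟩ := isPGroup_iff_mem.1 hQ x hx
  obtain ⟨n, hn⟩ := exists_pow_eq_self_of_coprime ((hm.pow_right k).coprime_dvd_right (orderOf_dvd_of_pow_eq_one hk))
  exact hn ▸ pow_mem (e x (R.nB (h1 hx).1 (h1 hx).2)) n

theorem map {G' : Type*} [Group G'] (f : G →* G') (hk : ∀ x, f x = 1 → ∀ y, x * y = y * x) :
    R1 p (X.map f) (U.map f) (B.map f) (f w) (f h) := by
  have kB : ∀ x ∈ X, f x ∈ B.map f → x ∈ B := fun x hx ⟨b, hb, e⟩ => (mul_mem_cancel_left (inv_mem hb)).1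
    (R.nB (mul_mem (inv_mem (R.BX hb)) hx) (Cz_le_Nm _ fun y _ => (hk _ (by rw [map_mul, map_inv, e, inv_mul_cancel]) y).symm))
  have kU : ∀ u ∈ U, f u = 1 → u = 1 := fun u hu e => R.ti u hu (by rw [mul_assoc, hk u e, inv_mul_cancel_left]; exact R.UB hu)
  obtain ⟨c, hc, e1⟩ := R.cyc
  obtain ⟨m, hm, e2⟩ := R.cop
  refine ⟨R.pg.map f, fun e => R.ne ((eq_bot_iff_forall _).2 fun u hu => kU u hu (mem_bot.1 (e ▸ mem_map_of_mem f hu))), map_mono R.UB,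
    map_mono R.BX, (map_mono R.BN).trans (le_normalizer_map f), mem_map_of_mem f R.wX, ?_, ?_, mem_map_of_mem f R.hB,
    ⟨_, R.hw, by simp⟩, ?_, ⟨_, R.hp, by simp⟩, ⟨f c, mem_map_of_mem f hc, ?_⟩, m, hm, ?_⟩
  · rintro _ ⟨g, hg, rfl⟩
    exact (R.bru g hg).imp (mem_map_of_mem f) fun ⟨u, hu, e⟩ => ⟨f u, mem_map_of_mem f hu, _, e, by simp⟩
  · rintro _ ⟨u, hu, rfl⟩ e
    rw [R.ti u hu (kB _ (mul_mem (mul_mem (inv_mem R.wX) (R.BX (R.UB hu))) R.wX) (by simpa using e)), map_one]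
  · rintro _ ⟨u, hu, rfl⟩ e
    rw [R.hc u hu (mul_inv_eq_one.1 (kU _ (by
      rw [mul_inv_rev, ← mul_assoc]
      exact mul_mem (conj_mem_of_mem_normalizer (R.BN R.hB) hu) (inv_mem hu)) (by simp [e]))), map_one]
  · rintro _ ⟨b, hb, rfl⟩
    exact (e1 b hb).imp fun k e => ⟨_, e, by simp⟩
  · rintro _ ⟨b, hb, rfl⟩
    exact ⟨_, e2 b hb, by simp⟩

theorem fixh (hp : p.Prime) (h1 : s ∈ Nm(X)) (h2 : s ∈ Nm(U)) {j : ℕ} (hs : s ^ p ^ j = 1) : h⁻¹ * (s * h * s⁻¹) ∈ U := by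
  obtain ⟨c, hc, e⟩ := R.cyc
  obtain ⟨k, hk⟩ := e h R.hB
  obtain ⟨m, hm⟩ := e _ (R.cB h1 h2 hc)
  let π := QuotientGroup.mk' (U.subgroupOf Nm(U))
  have e1 : π ⟨c, R.BN hc⟩ ^ k = π ⟨h, R.BN R.hB⟩ := by rw [← map_pow]; exact QuotientGroup.eq.2 hk
  have := cyc_fix (s := π ⟨s, h2⟩) (c := π ⟨c, R.BN hc⟩) (k := k) (m := m) (j := j) hp
    (by rw [← map_pow, ← map_inv, ← map_mul, ← map_mul]; exact ((QuotientGroup.eq (s := U.subgroupOf Nm(U))).2 hm).symm)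
    (by rw [← map_pow, show (⟨s, h2⟩ : Nm(U)) ^ p ^ j = 1 from Subtype.ext hs, map_one])
    (by rw [e1, ← map_pow]; exact (QuotientGroup.eq_one_iff _).2 R.hp)
  rw [e1, ← map_inv, ← map_mul, ← map_mul] at this
  exact (QuotientGroup.eq (s := U.subgroupOf Nm(U))).1 this.symm

theorem fixS (h1 : z ∈ Nm(X)) (h2 : ∀ u ∈ U, u * z = z * u) (h3 : h * z = z * h) {x u : G} (hx : x ∈ X) (hu : u ∈ U) :
    x * u * x⁻¹ * z = z * (x * u * x⁻¹) := by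
  have h4 : z ∈ Nm(U) := Cz_le_Nm _ h2
  have dw : w⁻¹ * (z * w * z⁻¹) ∈ B := by
    rcases R.bru _ (conj_mem_of_mem_normalizer h1 R.wX) with e | ⟨v, hv, e⟩
    · have := R.cB (inv_mem h1) (inv_mem h4) e
      exact absurd (R.BN (by simpa [mul_assoc] using this)) R.wN
    · have a1 := R.cB h1 h4 R.hw
      have a2 := mul_mem (mul_mem (mul_mem e a1) (inv_mem e)) (inv_mem R.hw)
      have a3 : z * h * z⁻¹ = h := mul_inv_eq_iff_eq_mul.2 h3.symm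
      rw [show w⁻¹ * v * (z * w * z⁻¹) * (z * (w⁻¹ * h * w) * z⁻¹) * (w⁻¹ * v * (z * w * z⁻¹))⁻¹ * (w⁻¹ * h * w)⁻¹ =
        w⁻¹ * (v * (z * h * z⁻¹ * v⁻¹ * h⁻¹)) * w by group, a3] at a2
      have a4 := R.ti _ (mul_mem hv (conj_mem_of_mem_normalizer (R.BN R.hB) (inv_mem hv))) a2
      rwa [R.hc v hv (by rw [← mul_inv_eq_one, ← a4, ← inv_inj]; rw [a4]; calc _ = v * (h * v⁻¹ * h⁻¹) := by group
        _ = _ := by rw [a4, inv_one]), mul_one] at e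
  have d : ∀ g ∈ X, g⁻¹ * (z * g * z⁻¹) ∈ B := fun g hg => by
    rcases R.bru g hg with e | ⟨v, hv, e⟩
    · exact mul_mem (inv_mem e) (R.cB h1 h4 e)
    · have := mul_mem (mul_mem (inv_mem e) dw) (R.cB h1 h4 e)
      rwa [show (w⁻¹ * v * g)⁻¹ * (w⁻¹ * (z * w * z⁻¹)) * (z * (w⁻¹ * v * g) * z⁻¹) = g⁻¹ * (v⁻¹ * (z * v) * g * z⁻¹) by group,
        ← h2 v hv, inv_mul_cancel_left] at this
  have k : ∀ y ∈ X, y⁻¹ * (x⁻¹ * (z * x * z⁻¹)) * y ∈ B := fun y hy => by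
    have := mul_mem (d _ (mul_mem hx hy)) (inv_mem (d y hy))
    rwa [show (x * y)⁻¹ * (z * (x * y) * z⁻¹) * (y⁻¹ * (z * y * z⁻¹))⁻¹ = y⁻¹ * (x⁻¹ * (z * x * z⁻¹)) * y by group] at this
  have b := d x hx
  generalize e : x⁻¹ * (z * x * z⁻¹) = δ at k b
  have := R.ti (δ * u * δ⁻¹ * u⁻¹) (mul_mem (conj_mem_of_mem_normalizer (R.BN b) hu) (inv_mem hu)) (by
    have := mul_mem (k w R.wX) (inv_mem (k _ (mul_mem (inv_mem (R.BX (R.UB hu))) R.wX)))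
    rwa [show w⁻¹ * δ * w * ((u⁻¹ * w)⁻¹ * δ * (u⁻¹ * w))⁻¹ = w⁻¹ * (δ * u * δ⁻¹ * u⁻¹) * w by group] at this)
  calc _ = x * (δ * u * δ⁻¹) * x⁻¹ * z := by rw [mul_inv_eq_one.1 this]
    _ = z * x * (z⁻¹ * (u * z)) * x⁻¹ := by rw [← e]; group
    _ = _ := by rw [h2 u hu]; group

theorem main [Finite G] [hp : Fact p.Prime] [X.Normal] (hT : SylIn p T ⊤)
    (pm : ∀ A A' : Subgroup G, T ≤ A → T ≤ A' → A ⊔ A' = ⊤ → A = ⊤ ∨ A' = ⊤) (hz : ∀ g ∈ Nm(T), g * z = z * g) (g : G) :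
    g * z = z * g := by
  obtain ⟨x, -, e⟩ := R.syl.conj (hT.inf_normal' (fun g _ => mem_Nm_of_normal g X) le_top)
  have R' := R.map (MulAut.conj x).toMonoidHom fun y e z => by rw [(map_eq_one_iff _ (MulAut.conj x).injective).1 e, one_mul, mul_one]
  rw [← cj_def, ← cj_def, e, cj_normal] at R'
  generalize Subgroup.map (MulAut.conj x).toMonoidHom B = B, (MulAut.conj x).toMonoidHom w = w, (MulAut.conj x).toMonoidHom h = h at R'
  have tN : T ≤ Nm(T ⊓ X) := fun s hs => mem_Nm_inf (le_normalizer hs) (mem_Nm_of_normal s X)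
  have hN : h ∈ Nm(T) := inv_mem_iff.1 (mem_normalizer_of_conj_mem fun s hs => by
    obtain ⟨j, hj⟩ := isPGroup_iff_mem.1 hT.pgrp s hs
    simpa [mul_assoc] using mul_mem (R'.fixh hp.out (mem_Nm_of_normal s X) (tN hs) hj).1 hs)
  have tz : T ≤ Cx(z) := fun s hs => mem_Cx.2 (hz s (le_normalizer hs))
  have f := fun x u => R'.fixS (mem_Nm_of_normal z X) (fun u hu => hz u (le_normalizer hu.1)) (hz h hN) (x := x) (u := u)
  rcases pm Cx(z) Nm(T ⊓ X) tz tN ((eq_top_iff' _).2 fun g => by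
    have s1 := R'.syl.cj_of_mem_Nm (mem_Nm_of_normal g X)
    obtain ⟨y, hy, e⟩ := R'.syl.conj s1
    obtain ⟨a, ha, e'⟩ := (R'.syl.mono (le_inf inf_le_right (inf_le_left.trans tz)) inf_le_left).conj (s1.mono (le_inf s1.le (by
      rw [← e]; exact cj_le_iff_forall.2 fun u hu => mem_Cx.2 (f y u hy hu))) inf_le_left)
    have : a⁻¹ * g ∈ Nm(T ⊓ X) := by rw [mem_normalizer_iff_cj, cj_mul, ← e', cj_inv_cj]
    simpa using mul_mem_sup ha.2 this) with c | c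
  · exact mem_Cx.1 (c ▸ mem_top g)
  · exact absurd (c ▸ mem_top w) R'.wN

end R1
end CfH5
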