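import Cfsg.Agent.H5.R1a
import Cfsg.Agent.H1.ModSU

/-! The split pairs of rank one of `SL₂(q)` and `SU₃(q)`. -/

set_option autoImplicit false
set_option linter.unusedSectionVars false

namespace CfH5

open Subgroup CfH9 CfH8 Matrix CfH1.U3 Cfsg
open scoped MatrixGroups

variable {F : Type*} [Field F] [Fintype F] {p : ℕ} [hp : Fact p.Prime]

theorem r1_model [CharP F p] {H n : Type*} [Group H] [Fintype n] [DecidableEq n] (ψ : H →* Matrix n n F) {e f : n → F} (he : e ≠ 0)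
    {w h : H} (hw : ψ w *ᵥ e = f) (h1 : ∀ g, ψ g *ᵥ e = e → g ^ p ^ 2 = 1) (h2 : ∃ u, u ≠ 1 ∧ ψ u *ᵥ e = e)
    (h3 : ∀ g, (∃ c : F, ψ g *ᵥ e = c • e) ∨ ∃ (u : H) (c : F), ψ u *ᵥ e = e ∧ ψ u *ᵥ (ψ g *ᵥ e) = c • f)
    (h4 : ∀ (u : H) (c : F), ψ u *ᵥ e = e → ψ u *ᵥ f = c • f → u = 1) (h5 : ψ h *ᵥ e = (2 : F) • e) (h6 : ∃ c : F, ψ h *ᵥ f = c • f)
    (h7 : ∀ u, ψ u *ᵥ e = e → h * u = u * h → u = 1) (p2 : (2 : F) ≠ 0) : ∃ U B, R1 p ⊤ U B w h := by
  classical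
  have m : ∀ a b v, ψ (a * b) *ᵥ v = ψ a *ᵥ (ψ b *ᵥ v) := fun a b v => by rw [map_mul, mulVec_mulVec]
  have i : ∀ a v, ψ a⁻¹ *ᵥ (ψ a *ᵥ v) = v := fun a v => by rw [← m, inv_mul_cancel, map_one, one_mulVec]
  have i' : ∀ a v, ψ a *ᵥ (ψ a⁻¹ *ᵥ v) = v := fun a v => by rw [← m, mul_inv_cancel, map_one, one_mulVec]
  let U : Subgroup H := ⟨⟨⟨{g | ψ g *ᵥ e = e}, fun {a b} (ha : _ = _) (hb : _ = _) => show _ = _ by rw [m, hb, ha]⟩,
    show _ = _ by rw [map_one, one_mulVec]⟩, fun {a} (ha : _ = _) => show _ = _ by conv_lhs => rw [← ha, i]⟩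
  let B : Subgroup H := ⟨⟨⟨{g | ∃ c : F, ψ g *ᵥ e = c • e}, fun {a b} ⟨c, ha⟩ ⟨d, hb⟩ =>
    ⟨d * c, by rw [m, hb, mulVec_smul, ha, smul_smul]⟩⟩, 1, by rw [map_one, one_mulVec, one_smul]⟩, fun {a} ⟨c, ha⟩ => ⟨c⁻¹, by
      have := i a e
      rw [ha, mulVec_smul] at this
      rw [eq_inv_smul_iff₀ (by rintro rfl; exact he (by rw [← this, zero_smul])), this]⟩⟩
  have k : ∀ y, w⁻¹ * y ∈ B ↔ ∃ c : F, ψ y *ᵥ e = c • f := fun y => exists_congr fun c =>
    ⟨fun a => by rw [← i' w (ψ y *ᵥ e), ← m w⁻¹, a, mulVec_smul, hw], fun a => by rw [m, a, mulVec_smul, ← hw, i]⟩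
  choose χ hχ using fun b : B => b.2
  have inj := smul_left_injective F he
  let χ' : B →* Fˣ := MonoidHom.toHomUnits ⟨⟨χ, inj (by simp only [← hχ, one_smul, OneMemClass.coe_one, map_one, one_mulVec])⟩,
    fun a b => inj (by simp only [← hχ, coe_mul, m]; rw [hχ b, mulVec_smul, hχ a, smul_smul, mul_comm])⟩
  have kχ : ∀ b : B, χ' b = 1 ↔ b.1 ∈ U := fun b => Units.ext_iff.trans
    ⟨fun (a : χ b = 1) => show _ = _ by rw [hχ, a, one_smul], fun (a : _ = _) => inj (show χ b • e = (1 : F) • e by rw [← hχ, a, one_smul])⟩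
  obtain ⟨⟨_, c, rfl⟩, hc⟩ := IsCyclic.exists_monoid_generator (α := χ'.range)
  refine ⟨U, B, isPGroup_iff_mem.2 fun g hg => ⟨2, h1 g hg⟩, fun a => ?_, fun g (hg : _ = _) => ⟨1, by rw [hg, one_smul]⟩, le_top,
    fun b hb => ?_, mem_top _, fun g _ => (h3 g).imp_right fun ⟨u, c, a, a'⟩ => ⟨u, a, by rw [mul_assoc, k, m]; exact ⟨c, a'⟩⟩,
    fun u hu a => ?_, ⟨2, h5⟩, by rw [mul_assoc, k, m, hw]; exact h6, h7, (kχ (⟨h, 2, h5⟩ ^ (p - 1))).1 ?_, ⟨c, c.2, fun b hb => ?_⟩,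
    Fintype.card F - 1, ?_, fun b hb => (kχ (⟨b, hb⟩ ^ _)).1 ?_⟩
  · obtain ⟨u, a1, a2⟩ := h2
    exact a1 (mem_bot.1 (a ▸ (a2 : u ∈ U)))
  · have : ∀ b ∈ B, ∀ u ∈ U, b * u * b⁻¹ ∈ U := fun b hb u hu => by
      obtain ⟨c, a⟩ := inv_mem hb
      show _ = _
      rw [m, m, a, mulVec_smul, show ψ u *ᵥ e = e from hu, ← a, i']
    exact mem_normalizer_iff.2 fun u => ⟨this b hb u, fun a => by simpa [mul_assoc] using this _ (inv_mem hb) _ a⟩
  · rw [mul_assoc, k, m, hw] at a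
    exact a.elim fun c a => h4 u c hu a
  · rw [map_pow, Units.ext_iff, Units.val_pow_eq_pow_val, show (χ' ⟨h, 2, h5⟩ : F) = 2 from inj (show _ • e = _ • e from (hχ _).symm.trans h5)]
    apply mul_left_cancel₀ p2
    rw [← pow_succ', Nat.sub_add_cancel hp.out.pos, ← one_add_one_eq_two, add_pow_char, one_pow, Units.val_one, mul_one]
  · obtain ⟨j, a⟩ := hc ⟨_, ⟨b, hb⟩, rfl⟩
    exact ⟨j, (kχ ((c ^ j)⁻¹ * ⟨b, hb⟩)).1 (by rw [map_mul, map_inv, map_pow, inv_mul_eq_one]; exact congrArg Subtype.val a)⟩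
  · obtain ⟨n, -, a⟩ := FiniteField.card F p
    rw [a]
    exact (Nat.coprime_self_sub_left (Nat.one_le_pow _ _ hp.out.pos)).2 (Nat.coprime_one_left _) |>.coprime_dvd_right
      (dvd_pow_self p n.ne_zero)
  · rw [map_pow, ← Fintype.card_units, pow_card_eq_one]

theorem ne_small [CharP F p] (h5 : 5 ≤ p) : (2 : F) ≠ 0 ∧ (3 : F) ≠ 0 :=
  ⟨fun e => by have := Nat.le_of_dvd two_pos ((CharP.cast_eq_zero_iff F p 2).1 e); omega,
    fun e => by have := Nat.le_of_dvd three_pos ((CharP.cast_eq_zero_iff F p 3).1 e); omega⟩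

theorem r1_sl [CharP F p] (h5 : 5 ≤ p) : ∃ U B w h, R1 p (⊤ : Subgroup SL(2, F)) U B w h := by
  obtain ⟨p2, p3⟩ := ne_small (F := F) h5
  have fx : ∀ g : SL(2, F), g.1 *ᵥ ![1, 0] = ![1, 0] → ∃ a, g = slT a := fun g => mem_slTs_iff_fix.2
  obtain ⟨U, B, R⟩ := r1_model (p := p) (slToMat 2 F) (e := ![1, 0]) (f := ![0, 1]) (w := ⟨!![0, -1; 1, 0], by simp [det_fin_two]⟩)
    (h := slD 2 p2) (by simp) (show (!![0, -1; 1, 0] : Matrix (Fin 2) (Fin 2) F) *ᵥ _ = _ by ext i; fin_cases i <;> simp [mulVec, dotProduct]) (fun g hg => by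
      obtain ⟨a, rfl⟩ := fx g hg
      rw [slT_pow, Nat.cast_pow, CharP.cast_eq_zero, zero_pow two_ne_zero, zero_mul, slT_zero])
    ⟨slT 1, fun e => one_ne_zero (slT_inj (e.trans slT_zero.symm)), (slT_mulVec _ _).trans (by simp)⟩ (fun g => by
      by_cases c : g 1 0 = 0
      · exact Or.inl ⟨g 0 0, (sl_mulVec _ _).trans (by simp [c])⟩
      · refine Or.inr ⟨slT (-(g 0 0 / g 1 0)), g 1 0, (slT_mulVec _ _).trans (by simp), (slT_mulVec _ _).trans ?_⟩
        rw [show slToMat 2 F g *ᵥ _ = _ from sl_mulVec g _]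
        simp [c])
    (fun u c hu e => by
      obtain ⟨a, rfl⟩ := fx u hu
      rw [show a = 0 by simpa using congrFun ((slT_mulVec a _).symm.trans e) 0, slT_zero])
    ((slD_mulVec _ p2 _).trans (by simp)) ⟨2⁻¹, (slD_mulVec _ p2 _).trans (by simp)⟩ (fun u hu e => by
      obtain ⟨a, rfl⟩ := fx u hu
      have := congrFun (congrFun (congrArg Subtype.val e) 0) 1
      simp [slT_val, slD_val, mul_apply, Fin.sum_univ_two] at this
      rw [show a = 0 from (mul_eq_zero.1 (show 3 * a = 0 by field_simp at this; linear_combination this)).resolve_left p3, slT_zero]) p2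
  exact ⟨U, B, _, _, R⟩

theorem su_rep {q : ℕ} (hF : Fintype.card F = q ^ 2) : ∃ ψ : SU 3 F q →* Matrix (Fin 3) (Fin 3) F,
    Hy (CfH2.frobQ hF) ψ ∧ ∀ g, (ψ g)ᵀ * J3 F * (ψ g).map (CfH2.frobQ hF) = J3 F ∧ (ψ g).det = 1 := by
  set σ := CfH2.frobQ hF
  have hσ : ∀ x, σ (σ x) = x := CfH2.frobQ_frobQ hF
  have hm : ∀ g : SU 3 F q, g.1.1ᵀ * g.1.1.map σ = 1 := fun g => by
    ext i j
    have := g.2 (Pi.single i 1) (Pi.single j 1)
    have e : ∀ u v : Fin 3 → F, hermForm 3 F q u v = u ⬝ᵥ (σ ∘ v) := fun u v => rfl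
    rw [e, e] at this
    change (g.1.1 *ᵥ _) ⬝ᵥ (σ ∘ (g.1.1 *ᵥ _)) = _ at this
    simpa [dotProduct, mul_apply, one_apply, Pi.single_apply, apply_ite σ, eq_comm] using this
  obtain ⟨ω, hω⟩ := exists_trace_one hF
  obtain ⟨ε, hε⟩ := CfH2.exists_norm_eq (CfH2.frobQ_ne_id hF) hσ (s := -1) (by simp)
  obtain ⟨P, hP⟩ : ∃ P : Matrix (Fin 3) (Fin 3) F, Pᵀ * P.map σ = J3 F := by
    refine ⟨!![1, 0, ω; ε, 0, -(σ ω * ε); 0, 1, 0], ?_⟩
    ext i j; fin_cases i <;> fin_cases j <;> simp [J3, mul_apply, Fin.sum_univ_three, hσ]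
    · linear_combination hε
    · linear_combination hω - ω * hε
    · linear_combination hω - σ ω * hε
    · linear_combination ω * σ ω * hε
  have hd : IsUnit P.det := by
    have := congrArg det hP
    rw [det_mul, det_transpose] at this
    refine isUnit_iff_ne_zero.2 fun h => ?_
    simp [h, J3, det_fin_three] at this
  have h1 := mul_nonsing_inv P hd
  have h2 := nonsing_inv_mul P hd
  set Q := P⁻¹
  refine ⟨⟨⟨fun g => Q * g.1.1 * P, by simp [h2]⟩, fun a b => ?_⟩, ⟨hσ, fun a b h => ?_, fun M hM hd => ?_⟩,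
    fun g => ⟨?_, ?_⟩⟩
  · change Q * (a.1.1 * b.1.1) * P = _
    calc _ = Q * a.1.1 * (P * Q) * b.1.1 * P := by rw [h1]; simp [mul_assoc]
      _ = _ := by simp only [mul_assoc]
  · refine Subtype.ext (Subtype.ext ?_)
    have h3 : P * (Q * a.1.1 * P) * Q = P * (Q * b.1.1 * P) * Q := congrArg (P * · * Q) h
    have h4 : ∀ M, P * (Q * M * P) * Q = M := fun M => by
      calc _ = (P * Q) * M * (P * Q) := by simp only [mul_assoc]
        _ = M := by rw [h1]; simp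
    rwa [h4, h4] at h3
  · refine ⟨⟨⟨P * M * Q, ?_⟩, mem_SU hF ?_⟩, ?_⟩
    · rw [det_mul, det_mul, hd, mul_one, ← det_mul, h1, det_one]
    · change (P * M * Q)ᵀ * (P * M * Q).map σ = 1
      rw [transpose_mul, transpose_mul, Matrix.map_mul, Matrix.map_mul]
      calc _ = Qᵀ * (Mᵀ * (Pᵀ * P.map σ) * M.map σ) * Q.map σ := by simp only [mul_assoc]
        _ = (P * Q)ᵀ * (P * Q).map σ := by
          rw [hP, hM, ← hP, transpose_mul, Matrix.map_mul]; simp only [mul_assoc]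
        _ = 1 := by rw [h1]; simp
    · change Q * (P * M * Q) * P = M
      calc _ = (Q * P) * M * (Q * P) := by simp only [mul_assoc]
        _ = M := by rw [h2]; simp
  · change (Q * g.1.1 * P)ᵀ * J3 F * (Q * g.1.1 * P).map σ = _
    rw [← hP, transpose_mul, transpose_mul, Matrix.map_mul, Matrix.map_mul]
    calc _ = Pᵀ * (g.1.1ᵀ * ((P * Q)ᵀ * (P * Q).map σ) * g.1.1.map σ) * P.map σ := by
          rw [transpose_mul, Matrix.map_mul]; simp only [mul_assoc]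
      _ = _ := by rw [h1, transpose_one, Matrix.map_one _ (map_zero σ) (map_one σ), mul_one, mul_one, hm g, mul_one]
  · change (Q * g.1.1 * P).det = 1
    rw [det_mul, det_mul, g.1.det_coe, mul_one, ← det_mul, h2, det_one]

theorem r1_su [CharP F p] (h5 : 5 ≤ p) {H : Type*} [Group H] {σ : F →+* F} {ψ : H →* Matrix (Fin 3) (Fin 3) F} (h : Hy σ ψ)
    (h' : ∀ g, (ψ g)ᵀ * J3 F * (ψ g).map σ = J3 F ∧ (ψ g).det = 1) : ∃ U B w h, R1 p (⊤ : Subgroup H) U B w h := by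
  obtain ⟨p2, p3⟩ := ne_small (F := F) h5
  have c0 : ∀ M : Matrix (Fin 3) (Fin 3) F, M *ᵥ ![1, 0, 0] = ![M 0 0, M 1 0, M 2 0] := fun M => by
    ext i; fin_cases i <;> simp [mulVec, dotProduct, Fin.sum_univ_three]
  have cu : ∀ (a a' b : F) (v : Fin 3 → F), up a a' b *ᵥ v = ![v 0 + a * v 1 + b * v 2, v 1 - a' * v 2, v 2] := fun a a' b v => by
    ext i; fin_cases i <;> simp [up, mulVec, dotProduct, Fin.sum_univ_three, sub_eq_add_neg]
  have fx : ∀ x, ψ x *ᵥ ![1, 0, 0] = ![1, 0, 0] → ∃ a b, ψ x = up a (σ a) b := fun x e => by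
    rw [c0] at e
    have x00 : ψ x 0 0 = 1 := congrFun e 0
    have x10 : ψ x 1 0 = 0 := congrFun e 1
    have x20 : ψ x 2 0 = 0 := congrFun e 2
    have f := fun i j => congrFun (congrFun (h' x).1 i) j
    have f01 := f 0 1
    have f02 := f 0 2
    have f12 := f 1 2
    simp [J3, mul_apply, vecMul, dotProduct, Fin.sum_univ_three, x00, x10, x20] at f01 f02 f12
    have x22 : ψ x 2 2 = 1 := by rw [← h.inv (ψ x 2 2), f02, map_one]
    have x11 : ψ x 1 1 = 1 := by simpa [det_fin_three, x00, x10, x20, f01, x22] using (h' x).2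
    simp only [f01, x11, x22, map_one, zero_mul, one_mul, mul_one, zero_add] at f12
    have x12 : ψ x 1 2 = -σ (ψ x 0 1) := by rw [← h.inv (ψ x 1 2), eq_neg_of_add_eq_zero_left f12, map_neg]
    exact ⟨ψ x 0 1, ψ x 0 2, by ext i j; fin_cases i <;> fin_cases j <;> simp [up, x00, x10, x20, f01, x11, x22, x12]⟩
  have u0 : ∀ u, ψ u = up 0 (σ 0) 0 → u = 1 := fun u e => h.inj (by rw [e, map_zero, up_zero, map_one])
  obtain ⟨w, hw⟩ := h.surj !![0, 0, 1; 0, -1, 0; 1, 0, 0] (by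
    ext i j; fin_cases i <;> fin_cases j <;> simp [J3, mul_apply, Fin.sum_univ_three]) (by simp [det_fin_three])
  obtain ⟨t, ht⟩ := h.surj !![2, 0, 0; 0, 1, 0; 0, 0, 2⁻¹] (by
    ext i j; fin_cases i <;> fin_cases j <;> simp [J3, mul_apply, Fin.sum_univ_three, map_ofNat, p2]) (by simp [det_fin_three, p2])
  obtain ⟨u, hu⟩ := h.exists_up (a := 1) (b := -2⁻¹) (by simp [map_ofNat]; field_simp; norm_num)
  obtain ⟨U, B, R⟩ := r1_model (p := p) ψ (e := ![1, 0, 0]) (f := ![0, 0, 1]) (w := w) (h := t) (by simp) (by rw [c0, hw]; rfl)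
    (fun g hg => by
      obtain ⟨a, b, hg⟩ := fx g hg
      obtain ⟨x, hx⟩ := up_pow a (σ a) b p
      apply h.inj
      rw [map_pow, hg, sq, pow_mul, hx, CharP.cast_eq_zero, zero_mul, zero_mul, up_pow_zero, CharP.cast_eq_zero, zero_mul, up_zero,
        map_one])
    ⟨u, fun e => one_ne_zero (up_inj (hu.symm.trans (by rw [e, map_one, up_zero]))).1, by rw [hu, cu]; simp⟩ (fun g => by
      have f := congrFun (congrFun (h' g).1 0) 0
      simp [J3, mul_apply, vecMul, dotProduct, Fin.sum_univ_three] at f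
      rw [c0]
      generalize ψ g 0 0 = x, ψ g 1 0 = y, ψ g 2 0 = z at f
      by_cases c : z = 0
      · exact Or.inl ⟨x, by simp [c, show y = 0 by simpa [c] using f]⟩
      · have c' : σ z ≠ 0 := by simpa using c
        obtain ⟨v, hv⟩ := h.exists_up (a := σ (y / z)) (b := -(x + σ (y / z) * y) / z) (by
          simp only [map_div₀, map_neg, map_add, map_mul, h.inv]
          field_simp
          linear_combination -f)
        refine Or.inr ⟨v, z, by rw [hv, cu]; simp, ?_⟩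
        rw [hv, cu, h.inv]
        ext i; fin_cases i <;> simp [c])
    (fun u c hu e => by
      obtain ⟨a, b, hu⟩ := fx u hu
      rw [hu, cu] at e
      exact u0 u (by rw [hu, show a = 0 by simpa using congrFun e 1, show b = 0 by simpa using congrFun e 0]))
    (by rw [c0, ht]; simp) ⟨2⁻¹, by rw [ht]; ext i; fin_cases i <;> simp [mulVec, dotProduct, Fin.sum_univ_three]⟩ (fun u hu e => by
      obtain ⟨a, b, hu⟩ := fx u hu
      have e := congrArg ψ e
      rw [map_mul, map_mul, hu, ht] at e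
      have e1 := congrFun (congrFun e 0) 1
      have e2 := congrFun (congrFun e 0) 2
      simp [up, mul_apply, Fin.sum_univ_three] at e1 e2
      exact u0 u (by rw [hu, show a = 0 by linear_combination e1,
        show b = 0 from (mul_eq_zero.1 (show 3 * b = 0 by field_simp at e2; linear_combination e2)).resolve_left p3])) p2
  exact ⟨U, B, _, _, R⟩

end CfH5
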